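import Mathlib
import Cfsg.Agent.Lib.Classical.Spectra.SignData

/-!
# The sign on the sphere of the involution `-1 ⊕ 1`; counting points in spaces with a Lagrangian
-/

set_option autoImplicit false

namespace Cfsg.Agent.Lib.Classical.Spectra.NegSign

open Finset QuadraticMap Module
open Cfsg.Agent.Lib.Classical.Spectra.SignData

variable {F V : Type*} [Field F] [Fintype F] [AddCommGroup V] [Module F V] [FiniteDimensional F V]

/-- The sign of `-1 ⊕ 1` on the sphere from the count of vectors on the first summand. -/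
theorem sign_neg (h2 : (2 : F) ≠ 0) (Q : QuadraticForm F V) (W U : Submodule F V) (hc : IsCompl W U)
    (hort : ∀ a ∈ W, ∀ b ∈ U, polar Q a b = 0) (τ : Module.End F V) (hτW : ∀ a ∈ W, τ a = -a) (hτU : ∀ b ∈ U, τ b = b)
    {M : ℕ} (hM : Even M) (α : F → ℕ)
    (hα : ∀ t, Nat.card {a : W // a ≠ 0 ∧ Q (a : V) = t} = M * α t) (hα1 : Odd (α 1))
    [Fintype {x : V // Q x = 1}] [DecidableEq {x : V // Q x = 1}] (π : Equiv.Perm {x : V // Q x = 1})
    (hπ : ∀ x, (π x : V) = τ x) : Equiv.Perm.sign π = (-1) ^ (M / 2) := by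
  classical
  let Φ : (W × U) ≃ₗ[F] V := Submodule.prodEquivOfIsCompl W U hc
  have hΦ : ∀ a b, Φ (a, b) = (a : V) + (b : V) := by
    intro a b
    simp [Φ]
  haveI : Finite V := Module.finite_of_finite F
  haveI : Fintype V := Fintype.ofFinite V
  haveI : Fintype U := Fintype.ofFinite U
  haveI : Fintype W := Fintype.ofFinite W
  have hQΦ : ∀ (a : W) (b : U), Q (Φ (a, b)) = Q (a : V) + Q (b : V) := by
    intro a b
    rw [hΦ, QuadraticMap.map_add (⇑Q), hort a a.2 b b.2, add_zero]
  have hτΦ : ∀ (a : W) (b : U), τ (Φ (a, b)) = Φ (-a, b) := by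
    intro a b
    rw [hΦ, hΦ, map_add, hτW a a.2, hτU b b.2]
    rfl
  let A : {x : V // Q x = 1} → W := fun x => (Φ.symm x).1
  let C : {x : V // Q x = 1} → U := fun x => (Φ.symm x).2
  have hAC : ∀ x : {x : V // Q x = 1}, Φ (A x, C x) = x := fun x => by
    simp [A, C]
  have hne2 : ∀ a : W, -a = a ↔ a = 0 := by
    intro a
    constructor
    · intro h
      have h3 : (2 : F) • a = 0 := by
        rw [two_smul]
        nth_rw 1 [← h]
        simp
      exact (smul_eq_zero.1 h3).resolve_left h2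
    · rintro rfl
      simp
  have hmove : ∀ x, π x ≠ x ↔ A x ≠ 0 := by
    intro x
    rw [Ne, Ne, not_iff_not, ← hne2, Subtype.ext_iff, hπ, ← hAC x, hτΦ, hAC x]
    constructor
    · intro h
      have h1 := Φ.injective (h.trans (hAC x).symm)
      exact congrArg Prod.fst h1
    · intro h
      rw [h, hAC]
  have hπ2 : ∀ x, π (π x) = x := by
    intro x
    apply Subtype.ext
    rw [hπ, hπ, ← hAC x, hτΦ, hτΦ, neg_neg]
  have hπsq : π ^ 2 = 1 := by
    ext x
    rw [pow_two]
    exact congrArg Subtype.val (hπ2 x)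
  have hfree : ∀ x, π x ≠ x → ∀ j, (π ^ j) x = x ↔ 2 ∣ j := by
    intro x hx j
    constructor
    · intro h
      by_contra hj
      have hj' : j = 2 * (j / 2) + 1 := by omega
      rw [hj', pow_succ, pow_mul, hπsq, one_pow, one_mul] at h
      exact hx h
    · rintro ⟨i, rfl⟩
      rw [pow_mul, hπsq, one_pow]
      rfl
  obtain ⟨c, hcard, hsign⟩ := SignFree.sign_of_free π even_two hfree
  let f : U → ℕ := fun b => α (1 - Q (b : V))
  have hfodd : Odd (∑ b, f b) := by
    refine odd_sum_of_even (F := F) h2 f ?_ ?_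
    · intro b
      simp only [f, Submodule.coe_neg, QuadraticMap.map_neg]
    · simpa [f] using hα1
  have hsupp : π.support.card = #{p : W × U | p.1 ≠ 0 ∧ Q (p.1 : V) + Q (p.2 : V) = 1} := by
    refine Finset.card_bij (fun x _ => (A x, C x)) ?_ ?_ ?_
    · intro x hx
      simp only [mem_filter, mem_univ, true_and]
      refine ⟨(hmove x).1 (Equiv.Perm.mem_support.1 hx), ?_⟩
      rw [← hQΦ, hAC]
      exact x.2
    · intro x _ x' _ h
      apply Subtype.ext
      rw [← hAC x, ← hAC x']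
      exact congrArg Φ h
    · rintro ⟨a, b⟩ hp
      simp only [mem_filter, mem_univ, true_and] at hp
      have hq : Q (Φ (a, b)) = 1 := by rw [hQΦ]; exact hp.2
      refine ⟨⟨Φ (a, b), hq⟩, ?_, ?_⟩
      · rw [Equiv.Perm.mem_support, hmove]
        simp only [A, LinearEquiv.symm_apply_apply]
        exact hp.1
      · simp [A, C]
  have hcount : π.support.card = M * ∑ b, f b := by
    rw [hsupp]
    have hfib := Finset.card_eq_sum_card_fiberwise
      (s := ({p : W × U | p.1 ≠ 0 ∧ Q (p.1 : V) + Q (p.2 : V) = 1} : Finset (W × U)))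
      (t := (Finset.univ : Finset U)) (f := Prod.snd) (fun _ _ => Finset.mem_coe.2 (Finset.mem_univ _))
    rw [hfib, Finset.mul_sum]
    refine Finset.sum_congr rfl fun b _ => ?_
    simp only [f]
    rw [← hα, Nat.card_eq_fintype_card, Fintype.card_subtype]
    refine Finset.card_bij (fun p _ => p.1) ?_ ?_ ?_
    · rintro ⟨a, b'⟩ hp
      simp only [mem_filter, mem_univ, true_and] at hp ⊢
      obtain ⟨⟨h1, h3⟩, rfl⟩ := hp
      refine ⟨h1, ?_⟩
      rw [← h3]
      ring
    · rintro ⟨a, b₁⟩ h₁ ⟨a', b₂⟩ h₂ h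
      simp only [mem_filter, mem_univ, true_and] at h₁ h₂ h
      rw [h, h₁.2, h₂.2]
    · intro a ha
      simp only [mem_filter, mem_univ, true_and] at ha
      refine ⟨(a, b), ?_, rfl⟩
      simp only [mem_filter, mem_univ, true_and, and_true]
      refine ⟨ha.1, ?_⟩
      rw [ha.2]
      ring
  obtain ⟨m, rfl⟩ := hM
  have hm2 : (m + m) / 2 = m := by omega
  rw [hm2, hsign]
  have hcm : c = m * ∑ b, f b := by
    rw [hcount] at hcard
    have : 2 * c = 2 * (m * ∑ b, f b) := by
      rw [← hcard]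
      ring
    exact Nat.eq_of_mul_eq_mul_left (by norm_num) this
  rw [hcm, pow_mul]
  rcases Nat.even_or_odd m with h | h
  · rw [h.neg_one_pow, one_pow]
  · rw [h.neg_one_pow, hfodd.neg_one_pow]

/-- Fibres of a nonzero functional. -/
theorem card_fiber_functional {W : Type*} [AddCommGroup W] [Module F W] [FiniteDimensional F W] (L : W →ₗ[F] F)
    (hL : L ≠ 0) (c : F) : Nat.card {w : W // L w = c} = Fintype.card F ^ (finrank F W - 1) := by
  classical
  haveI : Finite W := Module.finite_of_finite F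
  obtain ⟨w₀, hw₀⟩ : ∃ w₀, L w₀ ≠ 0 := by
    by_contra hcon
    push Not at hcon
    exact hL (LinearMap.ext hcon)
  have hsurj : Function.Surjective L := by
    intro x
    refine ⟨(x / L w₀) • w₀, ?_⟩
    rw [map_smul, smul_eq_mul, div_mul_cancel₀ _ hw₀]
  have hker : finrank F (LinearMap.ker L) = finrank F W - 1 := by
    have h1 := LinearMap.finrank_range_add_finrank_ker L
    rw [LinearMap.range_eq_top.2 hsurj, finrank_top, finrank_self] at h1
    omega
  have h1 : Nat.card {w : W // L w = c} = Nat.card (LinearMap.ker L) := by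
    obtain ⟨w₁, hw₁⟩ := hsurj c
    refine Nat.card_congr ⟨fun w => ⟨w.1 - w₁, by rw [LinearMap.mem_ker, map_sub, w.2, hw₁, sub_self]⟩,
      fun k => ⟨k.1 + w₁, by rw [map_add, LinearMap.mem_ker.1 k.2, zero_add, hw₁]⟩, ?_, ?_⟩
    · intro w
      simp
    · intro k
      simp
  rw [h1, ← hker]
  haveI : Fintype (LinearMap.ker L) := Fintype.ofFinite _
  rw [Nat.card_eq_fintype_card, Module.card_eq_pow_finrank (K := F)]

/-- **Count of vectors in a space with a Lagrangian.** -/
theorem count_lagrangian (Q₁ : QuadraticForm F V) (hsep : ∀ x, (∀ y, polar Q₁ x y = 0) → x = 0) (W₀ : Submodule F V)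
    (hiso : ∀ w ∈ W₀, Q₁ w = 0) {n : ℕ} (hW₀ : finrank F W₀ = n) (hn : 1 ≤ n) (hdim : finrank F V = 2 * n) :
    ∃ α : F → ℕ, (∀ t, Nat.card {a : V // a ≠ 0 ∧ Q₁ a = t} = (Fintype.card F ^ n - 1) * α t) ∧
      α 1 = Fintype.card F ^ (n - 1) := by
  classical
  refine ⟨fun t => Fintype.card F ^ (n - 1) + if t = 0 then 1 else 0, fun t => ?_, by simp⟩
  haveI : Finite V := Module.finite_of_finite F
  haveI : Fintype V := Fintype.ofFinite V
  obtain ⟨K, hc⟩ := Submodule.exists_isCompl W₀
  haveI : Fintype K := Fintype.ofFinite K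
  haveI : Fintype W₀ := Fintype.ofFinite W₀
  have hKrank : finrank F K = n := by
    have := Submodule.finrank_add_eq_of_isCompl hc
    omega
  have hcardK : Fintype.card K = Fintype.card F ^ n := by
    rw [Module.card_eq_pow_finrank (K := F), hKrank]
  have hcardW : Fintype.card W₀ = Fintype.card F ^ n := by
    rw [Module.card_eq_pow_finrank (K := F), hW₀]
  let Φ : (W₀ × K) ≃ₗ[F] V := Submodule.prodEquivOfIsCompl W₀ K hc
  have hΦ : ∀ a b, Φ (a, b) = (a : V) + (b : V) := by
    intro a b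
    simp [Φ]
  set B : LinearMap.BilinForm F V := polarBilin Q₁ with hB
  have hBnd : B.Nondegenerate := by
    refine ⟨fun x hx => hsep x hx, fun x hx => hsep x fun y => ?_⟩
    rw [polar_comm]
    exact hx y
  have hpol : ∀ w ∈ W₀, ∀ w' ∈ W₀, polar Q₁ w w' = 0 := by
    intro w hw w' hw'
    simp [polar, hiso _ hw, hiso _ hw', hiso _ (W₀.add_mem hw hw')]
  have hLag : B.orthogonal W₀ = W₀ := by
    symm
    apply Submodule.eq_of_le_of_finrank_eq
    · intro w hw
      rw [LinearMap.BilinForm.mem_orthogonal_iff]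
      intro w' hw'
      exact hpol w' hw' w hw
    · rw [LinearMap.BilinForm.finrank_orthogonal hBnd, hW₀, hdim]
      omega
  have hfun : ∀ κ : K, κ ≠ 0 → ∀ t' : F, Nat.card {w : W₀ // polar Q₁ (w : V) (κ : V) = t'} = Fintype.card F ^ (n - 1) := by
    intro κ hκ t'
    let L : W₀ →ₗ[F] F := (B.flip (κ : V)).comp W₀.subtype
    have hL : L ≠ 0 := by
      intro h
      have hmem : (κ : V) ∈ B.orthogonal W₀ := by
        rw [LinearMap.BilinForm.mem_orthogonal_iff]
        intro w hw
        exact LinearMap.congr_fun h ⟨w, hw⟩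
      rw [hLag] at hmem
      have h0 : (κ : V) = 0 := (Submodule.disjoint_def.1 hc.disjoint) _ hmem κ.2
      exact hκ (Subtype.ext h0)
    have h1 := card_fiber_functional L hL t'
    rw [hW₀] at h1
    exact h1
  have hNat : Nat.card {a : V // a ≠ 0 ∧ Q₁ a = t} = #{p : W₀ × K | p ≠ 0 ∧ Q₁ (p.1 : V) + Q₁ (p.2 : V) + polar Q₁ (p.1 : V) (p.2 : V) = t} := by
    rw [Nat.card_eq_fintype_card, Fintype.card_subtype]
    symm
    refine Finset.card_bij (fun p _ => Φ p) ?_ ?_ ?_
    · rintro ⟨a, b⟩ hp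
      simp only [mem_filter, mem_univ, true_and] at hp ⊢
      refine ⟨fun h => hp.1 ?_, ?_⟩
      · exact (map_eq_zero_iff Φ Φ.injective).1 h
      · rw [hΦ, QuadraticMap.map_add (⇑Q₁)]
        exact hp.2
    · intro p _ p' _ h
      exact Φ.injective h
    · intro x hx
      simp only [mem_filter, mem_univ, true_and] at hx
      refine ⟨Φ.symm x, ?_, by simp⟩
      simp only [mem_filter, mem_univ, true_and]
      constructor
      · intro h
        apply hx.1
        rw [← Φ.apply_symm_apply x, h, map_zero]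
      · rw [← hx.2]
        conv_rhs => rw [← Φ.apply_symm_apply x]
        have h3 : Φ.symm x = ((Φ.symm x).1, (Φ.symm x).2) := rfl
        rw [h3, hΦ, QuadraticMap.map_add (⇑Q₁)]
  rw [hNat]
  have hfib := Finset.card_eq_sum_card_fiberwise
    (s := ({p : W₀ × K | p ≠ 0 ∧ Q₁ (p.1 : V) + Q₁ (p.2 : V) + polar Q₁ (p.1 : V) (p.2 : V) = t} : Finset (W₀ × K)))
    (t := (Finset.univ : Finset K)) (f := Prod.snd) (fun _ _ => Finset.mem_coe.2 (Finset.mem_univ _))
  rw [hfib]
  have hnz : ∀ κ ∈ (Finset.univ : Finset K).erase 0,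
      #{p ∈ ({p : W₀ × K | p ≠ 0 ∧ Q₁ (p.1 : V) + Q₁ (p.2 : V) + polar Q₁ (p.1 : V) (p.2 : V) = t} : Finset (W₀ × K)) | p.2 = κ} = Fintype.card F ^ (n - 1) := by
    intro κ hκ
    have hκ0 : κ ≠ 0 := (Finset.mem_erase.1 hκ).1
    rw [← hfun κ hκ0 (t - Q₁ (κ : V)), Nat.card_eq_fintype_card, Fintype.card_subtype]
    refine Finset.card_bij (fun p _ => p.1) ?_ ?_ ?_
    · rintro ⟨a, b'⟩ hp
      simp only [mem_filter, mem_univ, true_and] at hp ⊢
      obtain ⟨⟨h1, h3⟩, rfl⟩ := hp
      rw [← h3, hiso _ a.2]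
      ring
    · rintro ⟨a, b₁⟩ h₁ ⟨a', b₂⟩ h₂ h
      simp only [mem_filter, mem_univ, true_and] at h₁ h₂ h
      rw [h, h₁.2, h₂.2]
    · intro a ha
      simp only [mem_filter, mem_univ, true_and] at ha
      refine ⟨(a, κ), ?_, rfl⟩
      simp only [mem_filter, mem_univ, true_and, and_true]
      constructor
      · intro h
        exact hκ0 (congrArg Prod.snd h)
      · rw [ha, hiso _ a.2]
        ring
  have hz : #{p ∈ ({p : W₀ × K | p ≠ 0 ∧ Q₁ (p.1 : V) + Q₁ (p.2 : V) + polar Q₁ (p.1 : V) (p.2 : V) = t} : Finset (W₀ × K)) | p.2 = 0} =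
      (Fintype.card F ^ n - 1) * (if t = 0 then 1 else 0) := by
    split_ifs with ht
    · rw [mul_one, ← hcardW, ← Finset.card_univ, ← Finset.card_erase_of_mem (Finset.mem_univ (0 : W₀))]
      refine Finset.card_bij (fun p _ => p.1) ?_ ?_ ?_
      · rintro ⟨a, b'⟩ hp
        simp only [mem_filter, mem_univ, true_and] at hp
        obtain ⟨⟨h1, -⟩, rfl⟩ := hp
        simp only [Finset.mem_erase, Finset.mem_univ, and_true]
        intro h
        apply h1
        rw [h]
        rfl
      · rintro ⟨a, b₁⟩ h₁ ⟨a', b₂⟩ h₂ h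
        simp only [mem_filter, mem_univ, true_and] at h₁ h₂ h
        rw [h, h₁.2, h₂.2]
      · intro a ha
        have ha0 : a ≠ 0 := (Finset.mem_erase.1 ha).1
        refine ⟨(a, 0), ?_, rfl⟩
        simp only [mem_filter, mem_univ, true_and, and_true]
        constructor
        · intro h
          exact ha0 (congrArg Prod.fst h)
        · simp [polar, hiso _ a.2, ht]
    · rw [mul_zero, Finset.card_eq_zero]
      rw [Finset.filter_eq_empty_iff]
      rintro ⟨a, b⟩ hp rfl
      simp only [mem_filter, mem_univ, true_and] at hp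
      apply ht
      rw [← hp.2]
      simp [polar, hiso _ a.2]
  rw [← Finset.add_sum_erase _ _ (Finset.mem_univ (0 : K)), hz, Finset.sum_congr rfl hnz, Finset.sum_const,
    Finset.card_erase_of_mem (Finset.mem_univ _), Finset.card_univ, hcardK, smul_eq_mul, mul_add, add_comm]

end Cfsg.Agent.Lib.Classical.Spectra.NegSign
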