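import Mathlib
import Cfsg.Agent.Lib.Classical.Spectra.OddOrders

/-!
# From symplectic to orthogonal: elements of order `r * s`
-/

set_option autoImplicit false

namespace Cfsg.Agent.Lib.Classical.Spectra.Rev

open Module QuadraticMap Matrix
open Cfsg.Agent.Lib.Classical.Spectra.Transfer Cfsg.Agent.Lib.Classical.Spectra.Swap
open Cfsg.Agent.Lib.Classical.Spectra.Main Cfsg.Agent.Lib.Classical.Spectra.Bridge
open Cfsg.Agent.Lib.Classical.Spectra.Local Cfsg.Agent.Lib.Classical.Spectra.OddOrders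
open Cfsg.Agent.Lib.Classical.Symp.OrdModels Cfsg.Agent.Lib.Classical.Symp.OrdClass
open Cfsg.Agent.Lib.Classical.Orth.Basic

section General

variable {F V : Type*} [Field F] [Fintype F] [AddCommGroup V] [Module F V] [FiniteDimensional F V]

theorem even_range_alt {B : LinearMap.BilinForm F V} (hA : B.IsAlt) (hsep : ∀ x, (∀ w, B x w = 0) → x = 0)
    {y : Module.End F V} {s : ℕ} (hs : (s : F) ≠ 0) (hy : y ^ s = 1) (hyB : ∀ a b, B (y a) (y b) = B a b) :
    ∃ l, finrank F (Rg y) = 2 * l := by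
  have hA' : (B.restrict (Rg y)).IsAlt := fun a => hA _
  have hsep' : ∀ x : Rg y, (∀ w : Rg y, B.restrict (Rg y) x w = 0) → x = 0 := by
    intro x hx
    apply Subtype.ext
    exact sep_range hs hy hyB hsep _ x.2 (fun w hw => hx ⟨w, hw⟩)
  have hnd := nondeg_of_alt hA' hsep'
  exact Cfsg.Agent.Lib.Classical.Symp.DecompMax.even_finrank _ _ hA' hnd rfl

/-- An involutive isometry of a nondegenerate alternating form has determinant one. -/
theorem det_invol_alt (h2 : (2 : F) ≠ 0) {B : LinearMap.BilinForm F V} (hA : B.IsAlt)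
    (hsep : ∀ x, (∀ w, B x w = 0) → x = 0) {T : Module.End F V} (hT : ∀ a b, B (T a) (T b) = B a b)
    (hTT : T ^ 2 = 1) : LinearMap.det T = 1 := by
  have hs : ((2 : ℕ) : F) ≠ 0 := by exact_mod_cast h2
  obtain ⟨l, hl⟩ := even_range_alt hA hsep hs hTT hT
  have hc := isCompl_ker_range hs hTT
  let Φ := Submodule.prodEquivOfIsCompl _ _ hc
  have hΦ : ∀ a b, Φ (a, b) = (a : V) + (b : V) := by
    intro a b
    simp [Φ]
  have hT' : T = (Φ : _ →ₗ[F] V) ∘ₗ (LinearMap.prodMap LinearMap.id (-LinearMap.id)) ∘ₗ (Φ.symm : V →ₗ[F] (LinearMap.ker (T - 1) × Rg T)) := by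
    apply ext_of_compl hc
    · intro x hx
      have h1 : T x = x := by
        have := LinearMap.mem_ker.1 hx
        simpa [sub_eq_zero] using this
      have h3 : Φ.symm x = (⟨x, hx⟩, 0) := by
        rw [LinearEquiv.symm_apply_eq, hΦ]
        simp
      simp only [LinearMap.comp_apply, LinearEquiv.coe_coe, h3, LinearMap.prodMap_apply, LinearMap.id_apply, map_zero,
        LinearMap.neg_apply, hΦ, neg_zero]
      simp [h1]
    · rintro _ ⟨w, rfl⟩
      have hTw : T (T w) = w := by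
        have := LinearMap.congr_fun hTT w
        simpa [pow_two] using this
      have h1 : T ((T - 1) w) = - (T - 1) w := by
        simp [map_sub, hTw]
      have h3 : Φ.symm ((T - 1) w) = (0, ⟨(T - 1) w, ⟨w, rfl⟩⟩) := by
        rw [LinearEquiv.symm_apply_eq, hΦ]
        simp
      simp only [LinearMap.comp_apply, LinearEquiv.coe_coe, h3, LinearMap.prodMap_apply, LinearMap.id_apply, map_zero,
        LinearMap.neg_apply, hΦ]
      simp [hTw]
  have hdet : LinearMap.det (-LinearMap.id : Module.End F (Rg T)) = 1 := by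
    have h1 : (-LinearMap.id : Module.End F (Rg T)) = (-1 : F) • LinearMap.id :=
      LinearMap.ext fun x => by simp
    rw [h1, LinearMap.det_smul, LinearMap.det_id, mul_one, hl, pow_mul]
    simp
  rw [hT', LinearMap.det_conj, LinearMap.det_prodMap, LinearMap.det_id, one_mul]
  exact hdet

end General

section Rev

variable {ι : Type} [Fintype ι] [DecidableEq ι] {F : Type*} [Field F] [Fintype F]
variable {V₂ : Type*} [AddCommGroup V₂] [Module F V₂] [FiniteDimensional F V₂]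
variable {V₁ : Type*} [AddCommGroup V₁] [Module F V₁] [FiniteDimensional F V₁]

theorem hQ_sep {Q : QuadraticForm F (ι → F)} (hQ : (polarBilin Q).Nondegenerate) (x : ι → F)
    (h : ∀ y, polar Q x y = 0) : x = 0 := hQ.1 x h

theorem finrank_pi : finrank F (ι → F) = Fintype.card ι := by simp

/-- The transfer data exist. -/
theorem exists_transfer (h2 : (2 : F) ≠ 0) (Q : QuadraticForm F (ι → F)) (hQ : (polarBilin Q).Nondegenerate)
    {B₂ : LinearMap.BilinForm F V₂} (hA : B₂.IsAlt) (hsep : ∀ x, (∀ w, B₂ x w = 0) → x = 0)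
    (hdim : finrank F V₂ + 1 ≤ Fintype.card ι) {y : Module.End F V₂} {s : ℕ} (hs : (s : F) ≠ 0) (hodd : Odd s)
    (hy : y ^ s = 1) (hyB : ∀ a b, B₂ (y a) (y b) = B₂ a b) : Nonempty (ExtData Q (twR B₂ y s)) := by
  refine exists_extData h2 Q (hQ_sep hQ) _ ?_ (twR_sep hs hodd hy hyB hsep) ?_
  · intro a b
    have h1 := twR_swap (B := B₂) (y := y) (s := s) hodd.pos hy hyB (ε := -1)
      (fun a b => by rw [← LinearMap.BilinForm.IsAlt.neg_eq hA a b]; ring) a b
    rw [h1]
    ring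
  · rw [finrank_pi]
    have := Submodule.finrank_le (Rg y)
    omega

variable {Q : QuadraticForm F (ι → F)} {B₁ : LinearMap.BilinForm F V₁}

theorem ex_eq_one_iff (D : ExtData Q B₁) (S : Module.End F V₁) : D.ex S = 1 ↔ S = 1 := by
  constructor
  · intro h
    apply LinearMap.ext
    intro a
    apply D.hinj
    rw [← D.ex_e, h]
    rfl
  · rintro rfl
    exact map_one _

theorem ex_pow_iff (D : ExtData Q B₁) (S : Module.End F V₁) (t : ℕ) : (D.ex S) ^ t = 1 ↔ S ^ t = 1 := by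
  rw [← map_pow, ex_eq_one_iff]

/-- Elements supported on the complement commute with the extensions. -/
theorem ex_comm_local (D : ExtData Q B₁) (S : Module.End F V₁) (g : Module.End F (ι → F))
    (hg₁ : ∀ v, (∀ w ∈ D.W, polar Q w v = 0) → g v = v) (hg₂ : ∀ w ∈ D.W, g w ∈ D.W) :
    D.ex S * g = g * D.ex S := by
  have he : ∀ a, ∀ w ∈ D.W, polar Q w (D.e a) = 0 := by
    intro a w hw
    rw [D.hW] at hw
    have h1 := (LinearMap.BilinForm.mem_orthogonal_iff.1 hw) (D.e a) ⟨a, rfl⟩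
    rw [polar_comm]
    exact h1
  apply ext_of_compl D.hc
  · rintro _ ⟨a, rfl⟩
    rw [Module.End.mul_apply, Module.End.mul_apply, hg₁ _ (he a), D.ex_e, hg₁ _ (he _)]
  · intro w hw
    rw [Module.End.mul_apply, Module.End.mul_apply, D.ex_w _ w hw, D.ex_w _ _ (hg₂ w hw)]

theorem finrank_W (D : ExtData Q B₁) : finrank F V₁ + finrank F D.W = Fintype.card ι := by
  have h1 := Submodule.finrank_add_eq_of_isCompl D.hc
  rw [LinearMap.finrank_range_of_inj D.hinj, finrank_pi] at h1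
  exact h1

theorem sep_W (hQ : (polarBilin Q).Nondegenerate) (D : ExtData Q B₁) (x : ι → F) (hx : x ∈ D.W)
    (h : ∀ y ∈ D.W, polar Q x y = 0) : x = 0 := by
  apply hQ_sep hQ
  intro v
  have hv : v ∈ LinearMap.range D.e ⊔ D.W := by rw [D.hc.sup_eq_top]; trivial
  obtain ⟨_, ⟨a, rfl⟩, w, hw, rfl⟩ := Submodule.mem_sup.1 hv
  have h1 : polar Q x (D.e a) = 0 := by
    rw [D.hW] at hx
    have h3 := (LinearMap.BilinForm.mem_orthogonal_iff.1 hx) (D.e a) ⟨a, rfl⟩
    rw [polar_comm]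
    exact h3
  have h3 := polar_add_right Q x (D.e a) w
  rw [h3, h1, h w hw, add_zero]

section Tw

variable {B₂ : LinearMap.BilinForm F V₂} {y : Module.End F V₂} {s : ℕ}

theorem ex_restrict_pow_iff (D : ExtData Q (twR B₂ y s)) {T : Module.End F V₂} (hTy : T * y = y * T) (t : ℕ) :
    (D.ex (T.restrict (stable hTy))) ^ t = 1 ↔ ∀ x ∈ Rg y, (T ^ t) x = x := by
  rw [ex_pow_iff]
  constructor
  · intro h x hx
    have h1 := LinearMap.congr_fun h ⟨x, hx⟩
    have h3 := congrArg Subtype.val h1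
    rw [restrict_pow] at h3
    exact h3
  · intro h
    apply LinearMap.ext
    intro x
    apply Subtype.ext
    rw [restrict_pow]
    exact h x x.2

theorem ex_restrict_isom (D : ExtData Q (twR B₂ y s)) (hodd : Odd s) (hy : y ^ s = 1) {T : Module.End F V₂}
    (hT : ∀ a b, B₂ (T a) (T b) = B₂ a b) (hTy : T * y = y * T) (v : ι → F) :
    Q (D.ex (T.restrict (stable hTy)) v) = Q v :=
  D.ex_Q _ (twR_isom hodd hy hT hTy) v

end Tw

section Finish

variable (Q)

/-- Producing an element of `PΩ` from commuting elements of `Ω`. -/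
theorem exists_pomega_mul (hc : Subgroup.center ↥(Cfsg.Omega F (⇑Q)) = ⊥) {τ g : ↥(Cfsg.isometryGroup F (⇑Q))}
    (hτ : τ ∈ Cfsg.Omega F (⇑Q)) (hg : g ∈ Cfsg.Omega F (⇑Q)) (hcomm : Commute τ g) (hcop : Nat.Coprime (orderOf τ) (orderOf g)) :
    ∃ x : Cfsg.POmega F (⇑Q), orderOf x = orderOf τ * orderOf g := by
  refine exists_pomega hc (Subgroup.mul_mem _ hτ hg) (m := orderOf τ * orderOf g) fun t => ?_
  rw [← hcomm.orderOf_mul_eq_mul_orderOf_of_coprime hcop, orderOf_dvd_iff_pow_eq_one]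

end Finish

/-- **Type A, symplectic to orthogonal.** -/
theorem omega_of_type_A (h2 : (2 : F) ≠ 0) (hQ : (polarBilin Q).Nondegenerate) (hcard : Odd (Fintype.card ι))
    (h5 : 5 ≤ Fintype.card ι) {B₂ : LinearMap.BilinForm F V₂} (hA : B₂.IsAlt) (hsep : ∀ x, (∀ w, B₂ x w = 0) → x = 0)
    (hdim : finrank F V₂ + 1 ≤ Fintype.card ι) {T : Module.End F V₂} (hT : ∀ a b, B₂ (T a) (T b) = B₂ a b) {m : ℕ}
    (hm : Odd m) (hmF : (m : F) ≠ 0) (hTm : ∀ t, T ^ t = 1 ↔ m ∣ t) : ∃ x : Cfsg.POmega F (⇑Q), orderOf x = m := by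
  have hTm1 : T ^ m = 1 := (hTm m).2 dvd_rfl
  obtain ⟨D⟩ := exists_transfer h2 Q hQ hA hsep hdim hmF hm hTm1 hT
  have hTT : T * T = T * T := rfl
  have hX : ∀ t, (D.ex (T.restrict (stable hTT))) ^ t = 1 ↔ m ∣ t := by
    intro t
    rw [ex_restrict_pow_iff D hTT, ← hTm t]
    constructor
    · intro h
      exact eq_one_of_fix hmF hTm1 (fun c hc => pow_fix_ker hc t) h
    · intro h x _
      rw [h]
      rfl
  obtain ⟨g, hg⟩ := exists_iso Q _ (ex_restrict_isom D hm hTm1 hT hTT) hm.pos ((hX m).2 dvd_rfl)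
  have hgt : ∀ t, g ^ t = 1 ↔ m ∣ t := by
    intro t
    rw [← Mat_pow_eq_one_iff, hg, hX]
  exact exists_pomega (center_bot hQ h2 hcard h5) (mem_omega_of_odd Q hQ h2 hm ((hgt m).2 dvd_rfl)) hgt

/-- **Type B, symplectic to orthogonal.** -/
theorem omega_of_type_B (p : ℕ) [hp : Fact p.Prime] [CharP F p] (h2 : (2 : F) ≠ 0) (hQ : (polarBilin Q).Nondegenerate)
    (hcard : Odd (Fintype.card ι))
    (h5 : 5 ≤ Fintype.card ι) {B₂ : LinearMap.BilinForm F V₂} (hA : B₂.IsAlt) (hsep : ∀ x, (∀ w, B₂ x w = 0) → x = 0)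
    (hdim : finrank F V₂ + 1 = Fintype.card ι) {T : Module.End F V₂} (hT : ∀ a b, B₂ (T a) (T b) = B₂ a b) {s : ℕ}
    (hsodd : Odd s) (hs : (s : F) ≠ 0) (hcop : Nat.Coprime p s) (hX : ∀ t, T ^ t = 1 ↔ p * s ∣ t) :
    ∃ x : Cfsg.POmega F (⇑Q), orderOf x = p * s := by
  have hoddp := odd_p (F := F) p h2
  have hoddm : Odd (p * s) := hoddp.mul hsodd
  have hc := center_bot hQ h2 hcard h5
  set y := T ^ p with hy
  set u := T ^ s with hu
  have hys : y ^ s = 1 := by
    rw [hy, ← pow_mul, hX]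
  have hup : u ^ p = 1 := by
    rw [hu, ← pow_mul, hX, mul_comm]
  have hyord : ∀ t, y ^ t = 1 ↔ s ∣ t := by
    intro t
    rw [hy, ← pow_mul, hX]
    exact Nat.mul_dvd_mul_iff_left hp.out.pos
  have huord : ∀ t, u ^ t = 1 ↔ p ∣ t := by
    intro t
    rw [hu, ← pow_mul, hX, mul_comm p s]
    exact Nat.mul_dvd_mul_iff_left hsodd.pos
  have hTpow : ∀ (j : ℕ) (a b : V₂), B₂ ((T ^ j) a) ((T ^ j) b) = B₂ a b := by
    intro j
    induction j with
    | zero => simp
    | succ j ih =>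
      intro a b
      rw [pow_succ, Module.End.mul_apply, Module.End.mul_apply, ih, hT]
  have hBy : ∀ a b, B₂ (y a) (y b) = B₂ a b := hTpow p
  obtain ⟨D⟩ := exists_transfer h2 Q hQ hA hsep hdim.le hs hsodd hys hBy
  by_cases hcase : ∃ x ∈ Rg y, u x ≠ x
  · obtain ⟨x₁, hx₁, hux⟩ := hcase
    have hTy : T * y = y * T := ((Commute.refl T).pow_right p).eq
    have hXt : ∀ t, (D.ex (T.restrict (stable hTy))) ^ t = 1 ↔ p * s ∣ t := by
      intro t
      rw [ex_restrict_pow_iff D hTy]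
      constructor
      · intro h
        exact dvd_of_fix hp.out hs hcop hX hx₁ hux h
      · intro h x _
        rw [(hX t).2 h]
        rfl
    obtain ⟨g, hg⟩ := exists_iso Q _ (ex_restrict_isom D hsodd hys hT hTy) hoddm.pos ((hXt _).2 dvd_rfl)
    have hgt : ∀ t, g ^ t = 1 ↔ p * s ∣ t := by
      intro t
      rw [← Mat_pow_eq_one_iff, hg, hXt]
    exact exists_pomega hc (mem_omega_of_odd Q hQ h2 hoddm ((hgt _).2 dvd_rfl)) hgt
  · push Not at hcase
    have hne : finrank F (Rg y) ≠ finrank F V₂ := by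
      intro hfr
      have htop : Rg y = ⊤ := Submodule.eq_top_of_finrank_eq hfr
      have h1 : u = 1 := by
        apply LinearMap.ext
        intro x
        exact hcase x (by rw [htop]; trivial)
      have h3 := (huord 1).1 (by rw [pow_one, h1])
      exact hp.out.one_lt.ne' (Nat.dvd_one.1 h3)
    obtain ⟨l, hl⟩ := even_range_alt hA hsep hs hys hBy
    have hle := Submodule.finrank_le (Rg y)
    have hW := finrank_W D
    have hW3 : 3 ≤ finrank F D.W := by
      obtain ⟨c, hc'⟩ := hcard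
      omega
    obtain ⟨g₀, hg₀, hg₁, hg₂⟩ := exists_unip_in (Q := Q) p hQ D.W hW3
    have hyy : y * y = y * y := rfl
    have hXt : ∀ t, (D.ex (y.restrict (stable hyy))) ^ t = 1 ↔ s ∣ t := by
      intro t
      rw [ex_restrict_pow_iff D hyy, ← hyord t]
      constructor
      · intro h
        exact eq_one_of_fix hs hys (fun c hc => pow_fix_ker hc t) h
      · intro h x _
        rw [h]
        rfl
    obtain ⟨g, hg⟩ := exists_iso Q _ (ex_restrict_isom D hsodd hys hBy hyy) hsodd.pos ((hXt _).2 dvd_rfl)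
    have hgt : ∀ t, g ^ t = 1 ↔ s ∣ t := by
      intro t
      rw [← Mat_pow_eq_one_iff, hg, hXt]
    have hgo : orderOf g = s := order_eq_of_iff _ _ hgt
    have hcomm : Commute g₀ g := by
      show g₀ * g = g * g₀
      apply Mat_injective Q
      rw [map_mul, map_mul, hg]
      exact (ex_comm_local D _ (Mat Q g₀) hg₁ hg₂).symm
    have hg₀Ω : g₀ ∈ Cfsg.Omega F (⇑Q) := mem_omega_of_odd Q hQ h2 hoddp (by rw [← hg₀]; exact pow_orderOf_eq_one g₀)
    have hgΩ : g ∈ Cfsg.Omega F (⇑Q) := mem_omega_of_odd Q hQ h2 hsodd ((hgt s).2 dvd_rfl)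
    have := exists_pomega_mul Q hc hg₀Ω hgΩ hcomm (by rw [hg₀, hgo]; exact hcop)
    rwa [hg₀, hgo] at this

theorem det_Mat (g : ↥(Cfsg.isometryGroup F (⇑Q))) :
    ((g : GL ι F) : Matrix ι ι F).det = LinearMap.det (Mat Q g) := by
  have h : Mat Q g = Matrix.toLin' ((g : GL ι F) : Matrix ι ι F) := rfl
  rw [h, LinearMap.det_toLin']

/-- **Type C on the orthogonal side.** -/
theorem omega_of_type_C (p : ℕ) [hp : Fact p.Prime] [CharP F p] (h2 : (2 : F) ≠ 0) (hQ : (polarBilin Q).Nondegenerate)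
    (hcard : Odd (Fintype.card ι)) (h7 : 7 ≤ Fintype.card ι) : ∃ x : Cfsg.POmega F (⇑Q), orderOf x = 2 * p := by
  have hc := center_bot hQ h2 hcard (by omega)
  have hoddp := odd_p (F := F) p h2
  let Q₃ := Cfsg.Agent.Lib.Classical.Orth.Models.oddForm 1 F
  have hQ₃ : (polarBilin Q₃).Nondegenerate := Cfsg.Agent.Lib.Classical.Orth.Models.oddForm_nondegenerate h2 1
  have hfr : finrank F (Unit ⊕ (Fin 1 ⊕ Fin 1) → F) = 3 := by simp
  obtain ⟨D⟩ := exists_extData h2 Q (hQ_sep hQ) (polarBilin Q₃) (fun a b => polar_comm _ a b) hQ₃.1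
    (by rw [hfr, finrank_pi]; omega)
  have hW := finrank_W D
  rw [hfr] at hW
  have hfre : finrank F (LinearMap.range D.e) = 3 := by
    rw [LinearMap.finrank_range_of_inj D.hinj, hfr]
  have hsepe : ∀ x ∈ LinearMap.range D.e, (∀ y ∈ LinearMap.range D.e, polar (⇑Q) x y = 0) → x = 0 := by
    rintro _ ⟨a, rfl⟩ h
    have h1 : a = 0 := by
      apply hQ₃.1
      intro b
      rw [← h (D.e b) ⟨b, rfl⟩, D.he]
    rw [h1, map_zero]
  obtain ⟨τ, hτΩ, hτo, hτ₁, hτ₂⟩ := exists_invol_in (Q := Q) h2 hQ (LinearMap.range D.e) hfre.ge hsepe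
  obtain ⟨g₀, hg₀, hg₁, hg₂⟩ := exists_unip_in (Q := Q) p hQ D.W (by omega)
  have horth₁ : ∀ a, ∀ w ∈ D.W, polar Q w (D.e a) = 0 := by
    intro a w hw
    rw [D.hW] at hw
    have h1 := (LinearMap.BilinForm.mem_orthogonal_iff.1 hw) (D.e a) ⟨a, rfl⟩
    rw [polar_comm]
    exact h1
  have horth₂ : ∀ x ∈ D.W, ∀ w ∈ LinearMap.range D.e, polar Q w x = 0 := by
    rintro x hx _ ⟨a, rfl⟩
    rw [polar_comm]
    exact horth₁ a x hx
  have hcomm : Commute τ g₀ := by
    show τ * g₀ = g₀ * τ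
    apply Mat_injective Q
    rw [map_mul, map_mul]
    apply ext_of_compl D.hc
    · rintro _ ⟨a, rfl⟩
      rw [Module.End.mul_apply, Module.End.mul_apply, Mat_apply, Mat_apply, Mat_apply, Mat_apply, hg₁ _ (horth₁ a)]
      obtain ⟨a', ha'⟩ := hτ₂ (D.e a) ⟨a, rfl⟩
      rw [← ha', hg₁ _ (horth₁ a')]
    · intro x hx
      rw [Module.End.mul_apply, Module.End.mul_apply, Mat_apply, Mat_apply, Mat_apply, Mat_apply, hτ₁ _ (horth₂ x hx),
        hτ₁ _ (horth₂ _ (hg₂ x hx))]
  have hg₀Ω : g₀ ∈ Cfsg.Omega F (⇑Q) := mem_omega_of_odd Q hQ h2 hoddp (by rw [← hg₀]; exact pow_orderOf_eq_one g₀)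
  have := exists_pomega_mul Q hc hτΩ hg₀Ω hcomm (by
    rw [hτo, hg₀]
    exact (Nat.coprime_two_left).2 hoddp)
  rwa [hτo, hg₀] at this

/-- **Type D on the orthogonal side.** -/
theorem omega_of_type_D (h2 : (2 : F) ≠ 0) (hQ : (polarBilin Q).Nondegenerate)
    (hcard : Odd (Fintype.card ι))
    (h5 : 5 ≤ Fintype.card ι) {B₂ : LinearMap.BilinForm F V₂} (hA : B₂.IsAlt) (hsep : ∀ x, (∀ w, B₂ x w = 0) → x = 0)
    (hdim : finrank F V₂ + 1 = Fintype.card ι) {T : Module.End F V₂} (hT : ∀ a b, B₂ (T a) (T b) = B₂ a b) {s : ℕ}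
    (hsodd : Odd s) (hs1 : 1 < s) (hs : (s : F) ≠ 0) (hTord : ∀ t, (T ^ t = 1 ∨ T ^ t = -1) ↔ 2 * s ∣ t) :
    ∃ x : Cfsg.POmega F (⇑Q), orderOf x = 2 * s := by
  have hc := center_bot hQ h2 hcard h5
  have h2s : T ^ (2 * s) = 1 ∨ T ^ (2 * s) = -1 := (hTord _).2 dvd_rfl
  have hT4s : T ^ (4 * s) = 1 := by
    have : 4 * s = 2 * s * 2 := by ring
    rw [this, pow_mul]
    rcases h2s with h | h <;> simp [h]
  have hco4 : Nat.Coprime 4 s := by
    have : Nat.Coprime (2 ^ 2) s := Nat.Coprime.pow_left 2 ((Nat.coprime_two_left).2 hsodd)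
    simpa using this
  obtain ⟨a, -, ha⟩ := Nat.exists_mul_mod_eq_one_of_coprime hco4 hs1
  obtain ⟨b, -, hb⟩ := Nat.exists_mul_mod_eq_one_of_coprime hco4.symm (by norm_num : 1 < 4)
  have hbodd : Odd b := by
    rcases Nat.even_or_odd b with ⟨c, hc'⟩ | h
    · exfalso
      have h1 : s * b = 2 * (s * c) := by rw [hc']; ring
      rw [h1] at hb
      omega
    · exact h
  have hsum : (s * b + 4 * a) % (4 * s) = 1 := by
    have h1 : s * b + 4 * a ≡ 1 [MOD 4 * s] := by
      rw [← Nat.modEq_and_modEq_iff_modEq_mul hco4]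
      constructor
      · show (s * b + 4 * a) % 4 = 1 % 4
        rw [Nat.add_mul_mod_self_left, hb]
      · show (s * b + 4 * a) % s = 1 % s
        rw [Nat.mul_add_mod, ha, Nat.mod_eq_of_lt hs1]
    have h3 : 1 % (4 * s) = 1 := Nat.mod_eq_of_lt (by omega)
    rw [Nat.ModEq, h3] at h1
    exact h1
  set y := T ^ (4 * a) with hy
  set t := T ^ (s * b) with ht
  have hty : t * y = T := by
    rw [ht, hy, ← pow_add, pow_eq_pow_mod _ hT4s, hsum, pow_one]
  have hcom : Commute t y := (Commute.refl T).pow_pow _ _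
  have hys : y ^ s = 1 := by
    have : 4 * a * s = 4 * s * a := by ring
    rw [hy, ← pow_mul, this, pow_mul, hT4s, one_pow]
  have htt : t ^ 2 = T ^ (2 * s) := by
    have : s * b * 2 = 2 * s * b := by ring
    rw [ht, ← pow_mul, this, pow_mul]
    rcases h2s with h | h
    · rw [h, one_pow]
    · rw [h, hbodd.neg_one_pow]
  have ht4 : t ^ 4 = 1 := by
    have : (4 : ℕ) = 2 * 2 := rfl
    rw [this, pow_mul, htt, ← pow_mul]
    have : 2 * s * 2 = 4 * s := by ring
    rw [this, hT4s]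
  have hyord : ∀ j, y ^ j = 1 ↔ s ∣ j := by
    intro j
    constructor
    · intro h
      rw [hy, ← pow_mul] at h
      have h3 : 2 * s ∣ 4 * a * j := (hTord _).1 (Or.inl h)
      have h4 : s ∣ 4 * a * j := (dvd_mul_left _ _).trans h3
      have h5 : 4 * a ≡ 1 [MOD s] := by
        show (4 * a) % s = 1 % s
        rw [ha, Nat.mod_eq_of_lt hs1]
      have h6 : 4 * a * j ≡ 1 * j [MOD s] := h5.mul_right j
      rw [one_mul] at h6
      exact (h6.dvd_iff dvd_rfl).1 h4
    · rintro ⟨c, rfl⟩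
      rw [pow_mul, hys, one_pow]
  have hTpow : ∀ (j : ℕ) (a b : V₂), B₂ ((T ^ j) a) ((T ^ j) b) = B₂ a b := by
    intro j
    induction j with
    | zero => simp
    | succ j ih =>
      intro a b
      rw [pow_succ, Module.End.mul_apply, Module.End.mul_apply, ih, hT]
  have hBy : ∀ a b, B₂ (y a) (y b) = B₂ a b := hTpow _
  have hBt : ∀ a b, B₂ (t a) (t b) = B₂ a b := hTpow _
  obtain ⟨D⟩ := exists_transfer h2 Q hQ hA hsep hdim.le hs hsodd hys hBy
  have hyy : y * y = y * y := rfl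
  have hXt : ∀ j, (D.ex (y.restrict (stable hyy))) ^ j = 1 ↔ s ∣ j := by
    intro j
    rw [ex_restrict_pow_iff D hyy, ← hyord j]
    constructor
    · intro h
      exact eq_one_of_fix hs hys (fun c hc => pow_fix_ker hc j) h
    · intro h x _
      rw [h]
      rfl
  obtain ⟨g, hg⟩ := exists_iso Q _ (ex_restrict_isom D hsodd hys hBy hyy) hsodd.pos ((hXt _).2 dvd_rfl)
  have hgt : ∀ j, g ^ j = 1 ↔ s ∣ j := by
    intro j
    rw [← Mat_pow_eq_one_iff, hg, hXt]
  have hgo : orderOf g = s := order_eq_of_iff _ _ hgt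
  have hgΩ : g ∈ Cfsg.Omega F (⇑Q) := mem_omega_of_odd Q hQ h2 hsodd ((hgt s).2 dvd_rfl)
  have hfinish : ∀ τ : ↥(Cfsg.isometryGroup F (⇑Q)), τ ∈ Cfsg.Omega F (⇑Q) → τ ^ 2 = 1 → τ ≠ 1 → Commute τ g →
      ∃ x : Cfsg.POmega F (⇑Q), orderOf x = 2 * s := by
    intro τ hτΩ hτ2 hτ1 hcomm
    haveI : Fact (Nat.Prime 2) := ⟨Nat.prime_two⟩
    have hτo : orderOf τ = 2 := orderOf_eq_prime hτ2 hτ1
    have := exists_pomega_mul Q hc hτΩ hgΩ hcomm (by
      rw [hτo, hgo]
      exact (Nat.coprime_two_left).2 hsodd)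
    rwa [hτo, hgo] at this
  by_cases hne : finrank F (Rg y) = finrank F V₂
  swap
  · obtain ⟨l, hl⟩ := even_range_alt hA hsep hs hys hBy
    have hle := Submodule.finrank_le (Rg y)
    have hW := finrank_W D
    have hW3 : 3 ≤ finrank F D.W := by
      obtain ⟨c, hc'⟩ := hcard
      omega
    obtain ⟨τ, hτΩ, hτo, hτ₁, hτ₂⟩ := exists_invol_in (Q := Q) h2 hQ D.W hW3 (sep_W hQ D)
    refine hfinish τ hτΩ (by rw [← hτo]; exact pow_orderOf_eq_one τ) ?_ ?_
    · intro h
      rw [h, orderOf_one] at hτo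
      omega
    · show τ * g = g * τ
      apply Mat_injective Q
      rw [map_mul, map_mul, hg]
      exact (ex_comm_local D _ (Mat Q τ) hτ₁ hτ₂).symm
  have htop : Rg y = ⊤ := Submodule.eq_top_of_finrank_eq hne
  have hV₂ : 0 < finrank F V₂ := by omega
  haveI : Nontrivial V₂ := Module.nontrivial_of_finrank_pos hV₂
  have hcomty : t * y = y * t := hcom.eq
  let t₁ : Module.End F (Rg y) := t.restrict (stable hcomty)
  let y₁ : Module.End F (Rg y) := y.restrict (stable hyy)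
  have ht₁ : ∀ x : Rg y, ((t₁ x : Rg y) : V₂) = t x := fun _ => rfl
  have hy₁ : ∀ x : Rg y, ((y₁ x : Rg y) : V₂) = y x := fun _ => rfl
  have hty₁ : t₁ * y₁ = y₁ * t₁ := by
    apply LinearMap.ext
    intro x
    apply Subtype.ext
    show t (y x) = y (t x)
    exact LinearMap.congr_fun hcomty x
  have hXt₁ : ∀ j, (D.ex t₁) ^ j = 1 ↔ ∀ x ∈ Rg y, (t ^ j) x = x := ex_restrict_pow_iff D hcomty
  obtain ⟨gt, hgt'⟩ := exists_iso Q (D.ex t₁) (ex_restrict_isom D hsodd hys hBt hcomty) (m := 4) (by norm_num)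
    ((hXt₁ 4).2 (fun x _ => by rw [ht4]; rfl))
  have hcommt : Commute gt g := by
    show gt * g = g * gt
    apply Mat_injective Q
    rw [map_mul, map_mul, hg, hgt', ← map_mul, ← map_mul, hty₁]
  have hne1 : (-1 : Module.End F (Rg y)) ≠ 1 := by
    intro h
    obtain ⟨x₀, hx₀⟩ := exists_ne (0 : V₂)
    have hx : x₀ ∈ Rg y := by rw [htop]; trivial
    have h3 := congrArg Subtype.val (LinearMap.congr_fun h ⟨x₀, hx⟩)
    have h4 : -x₀ = x₀ := h3
    apply hx₀
    have h5 : (2 : F) • x₀ = 0 := by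
      rw [two_smul]
      nth_rw 1 [← h4]
      simp
    exact (smul_eq_zero.1 h5).resolve_left h2
  rcases h2s with h2s | h2s
  swap
  · -- `t ^ 2 = -1`
    refine hfinish (gt ^ 2) (sq_mem_omega Q hQ h2 gt) ?_ ?_ (hcommt.pow_left 2)
    · rw [← pow_mul, ← Mat_pow_eq_one_iff, hgt']
      exact (hXt₁ _).2 (fun x _ => by rw [ht4]; rfl)
    · intro h
      have h3 : (D.ex t₁) ^ 2 = 1 := by
        rw [← hgt', ← map_pow, h, map_one]
      have h4 := (hXt₁ 2).1 h3
      apply hne1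
      apply LinearMap.ext
      intro x
      apply Subtype.ext
      have h5 := h4 x x.2
      rw [htt, h2s] at h5
      show -(x : V₂) = x
      simpa using h5
  -- `t ^ 2 = 1`
  have htt1 : t ^ 2 = 1 := by rw [htt, h2s]
  have hTs : T ^ s = t ^ s := by
    have h3 : T ^ s = (t * y) ^ s := by rw [hty]
    rw [h3, hcom.mul_pow, hys, mul_one]
  have hs2 : ¬ (2 * s ∣ s) := by
    intro h
    have := Nat.le_of_dvd (by omega) h
    omega
  have ht₁ne1 : t₁ ≠ 1 := by
    intro h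
    apply hs2
    apply (hTord s).1
    left
    have h3 : t = 1 := by
      apply LinearMap.ext
      intro x
      have hx : x ∈ Rg y := by rw [htop]; trivial
      have h4 := congrArg Subtype.val (LinearMap.congr_fun h ⟨x, hx⟩)
      exact h4
    rw [hTs, h3, one_pow]
  have ht₁ne2 : -t₁ ≠ 1 := by
    intro h
    apply hs2
    apply (hTord s).1
    right
    have h3 : t = -1 := by
      apply LinearMap.ext
      intro x
      have hx : x ∈ Rg y := by rw [htop]; trivial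
      have h4 : -(t x) = x := congrArg Subtype.val (LinearMap.congr_fun h ⟨x, hx⟩)
      show t x = -x
      exact neg_eq_iff_eq_neg.1 h4
    rw [hTs, h3, hsodd.neg_one_pow]
  have ht₁sq : t₁ ^ 2 = 1 := by
    rw [pow_two]
    apply LinearMap.ext
    intro x
    apply Subtype.ext
    have h3 := LinearMap.congr_fun htt1 x
    rw [pow_two] at h3
    exact h3
  have hTwt : ∀ a b : Rg y, twR B₂ y s (t₁ a) (t₁ b) = twR B₂ y s a b := twR_isom hsodd hys hBt hcomty
  have hnegapp : ∀ a, (-t₁) a = -(t₁ a) := fun _ => rfl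
  have ht₁t₁ : ∀ x, t₁ (t₁ x) = x := by
    intro x
    have := LinearMap.congr_fun ht₁sq x
    rwa [pow_two, Module.End.mul_apply, Module.End.one_apply] at this
  have hβsq : (-t₁) ^ 2 = 1 := by
    rw [pow_two]
    apply LinearMap.ext
    intro x
    rw [Module.End.mul_apply, hnegapp, hnegapp, map_neg, neg_neg, ht₁t₁]
    rfl
  have hXβ : ∀ v, Q (D.ex (-t₁) v) = Q v := by
    apply D.ex_Q
    intro a b
    rw [hnegapp, hnegapp, map_neg, map_neg, LinearMap.neg_apply, hTwt, neg_neg]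
  have hβ2 : (D.ex (-t₁)) ^ 2 = 1 := by
    rw [ex_pow_iff, hβsq]
  obtain ⟨gβ, hgβ⟩ := exists_iso Q (D.ex (-t₁)) hXβ (m := 2) (by norm_num) hβ2
  have hgt2 : gt ^ 2 = 1 := by
    rw [← Mat_pow_eq_one_iff, hgt', ex_pow_iff, ht₁sq]
  have hgβ2 : gβ ^ 2 = 1 := by
    rw [← Mat_pow_eq_one_iff, hgβ, hβ2]
  have hcommβ : Commute gβ g := by
    show gβ * g = g * gβ
    apply Mat_injective Q
    rw [map_mul, map_mul, hg, hgβ, ← map_mul, ← map_mul]
    congr 1
    apply LinearMap.ext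
    intro x
    rw [Module.End.mul_apply, Module.End.mul_apply, hnegapp, hnegapp, map_neg]
    congr 1
    exact LinearMap.congr_fun hty₁ x
  have hcommtβ : Commute gt gβ := by
    show gt * gβ = gβ * gt
    apply Mat_injective Q
    rw [map_mul, map_mul, hgβ, hgt', ← map_mul, ← map_mul]
    congr 1
    apply LinearMap.ext
    intro x
    rw [Module.End.mul_apply, Module.End.mul_apply, hnegapp, hnegapp, map_neg]
  have hAr : (B₂.restrict (Rg y)).IsAlt := fun a => hA _
  have hsr : ∀ x : Rg y, (∀ w : Rg y, B₂.restrict (Rg y) x w = 0) → x = 0 := by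
    intro x hx
    apply Subtype.ext
    exact sep_range hs hys hBy hsep _ x.2 (fun w hw => hx ⟨w, hw⟩)
  have hisom : ∀ a b : Rg y, B₂.restrict (Rg y) (t₁ a) (t₁ b) = B₂.restrict (Rg y) a b := fun a b => hBt a b
  have hdet1 : LinearMap.det t₁ = 1 := det_invol_alt h2 hAr hsr hisom ht₁sq
  have hdet2 : LinearMap.det (-t₁) = 1 := by
    refine det_invol_alt h2 hAr hsr ?_ hβsq
    intro a b
    rw [hnegapp, hnegapp, map_neg, map_neg, LinearMap.neg_apply, hisom, neg_neg]
  rcases one_of_three Q hQ h2 (α := gt) (β := gβ) (by rw [det_Mat, hgt', D.ex_det, hdet1])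
    (by rw [det_Mat, hgβ, D.ex_det, hdet2]) with h | h | h
  · refine hfinish gt h hgt2 ?_ hcommt
    intro h1
    apply ht₁ne1
    rw [← ex_eq_one_iff D, ← hgt', h1, map_one]
  · refine hfinish gβ h hgβ2 ?_ hcommβ
    intro h1
    apply ht₁ne2
    rw [← ex_eq_one_iff D, ← hgβ, h1, map_one]
  · refine hfinish (gt * gβ) h ?_ ?_ (hcommt.mul_left hcommβ)
    · rw [hcommtβ.mul_pow, hgt2, hgβ2, one_mul]
    · intro h1
      apply hne1
      rw [← ex_eq_one_iff D]
      have h3 : Mat Q (gt * gβ) = 1 := by rw [h1, map_one]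
      rw [map_mul, hgt', hgβ, ← map_mul] at h3
      have h4 : t₁ * -t₁ = -1 := by
        apply LinearMap.ext
        intro x
        rw [Module.End.mul_apply, hnegapp, map_neg, ht₁t₁]
        rfl
      rwa [h4] at h3

end Rev

end Cfsg.Agent.Lib.Classical.Spectra.Rev
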