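import Mathlib
import Cfsg.Agent.Lib.Classical.Spectra.NegSign
import Cfsg.Agent.Lib.Classical.Spectra.Struct
import Cfsg.Agent.Lib.Classical.Symp.OrdClass

/-!
# Isometries of odd prime order in even dimension: the structure needed for the sign computation
-/

set_option autoImplicit false

namespace Cfsg.Agent.Lib.Classical.Spectra.Trich

open Polynomial Module QuadraticMap
open Cfsg.Agent.Lib.Classical.Spectra.Struct Cfsg.Agent.Lib.Classical.Spectra.FieldCount
open Cfsg.Agent.Lib.Classical.Symp.OrdModels Cfsg.Agent.Lib.Classical.Symp.OrdClass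

variable {F V : Type*} [Field F] [Fintype F] [AddCommGroup V] [Module F V] [FiniteDimensional F V]

theorem frobHom_pow_apply {K : Type*} [Field K] [Algebra F K] [Finite K] (d : ℕ) (b : K) :
    ((FiniteField.frobeniusAlgHom F K) ^ d) b = b ^ (Fintype.card F ^ d) := by
  induction d with
  | zero => simp
  | succ d ih =>
    rw [pow_succ', AlgHom.mul_apply, ih, pow_succ, pow_mul]
    simp

/-- A root of the same irreducible polynomial as its inverse. -/
theorem exists_half {g : F[X]} [hg : Fact (Irreducible g)] [Finite (AdjoinRoot g)] {s : ℕ} (hs : s.Prime) (hsodd : Odd s)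
    (hρs : (AdjoinRoot.root g) ^ s = 1) (hρ1 : AdjoinRoot.root g ≠ 1) (h : aeval (AdjoinRoot.root g)⁻¹ g = 0) :
    ∃ m : ℕ, 1 ≤ m ∧ g.natDegree = 2 * m ∧ (AdjoinRoot.root g) ^ (Fintype.card F ^ m + 1) = 1 := by
  set ρ := AdjoinRoot.root g with hρdef
  have hρ0 : ρ ≠ 0 := by
    intro h
    rw [h, zero_pow hs.ne_zero] at hρs
    exact zero_ne_one hρs
  let σ : AdjoinRoot g →ₐ[F] AdjoinRoot g := AdjoinRoot.liftAlgHom g (Algebra.ofId F _) ρ⁻¹ h
  have hσ : σ ρ = ρ⁻¹ := AdjoinRoot.liftAlgHom_root _ _ _ _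
  have hfr : finrank F (AdjoinRoot g) = g.natDegree := finrank_adjoin g
  obtain ⟨⟨j, hjlt⟩, hj⟩ := (FiniteField.bijective_frobeniusAlgHom_pow F (AdjoinRoot g)).2 σ
  simp only at hj
  have hj1 : ρ ^ (Fintype.card F ^ j) = ρ⁻¹ := by
    rw [← hσ, ← hj, frobHom_pow_apply]
  have hj2 : ρ ^ (Fintype.card F ^ j + 1) = 1 := by
    rw [pow_succ, hj1, inv_mul_cancel₀ hρ0]
  haveI : Fact s.Prime := ⟨hs⟩
  have hord : orderOf ρ = s := orderOf_eq_prime hρs hρ1
  have hj0 : j ≠ 0 := by
    rintro rfl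
    have h1 : ρ ^ 2 = 1 := by simpa using hj2
    have h3 : s ∣ 2 := hord ▸ orderOf_dvd_of_pow_eq_one h1
    have h4 := (Nat.prime_dvd_prime_iff_eq hs Nat.prime_two).1 h3
    subst h4
    exact absurd hsodd (by decide)
  have hone : (FiniteField.frobeniusAlgHom F (AdjoinRoot g)) ^ (2 * j) = 1 := by
    apply AdjoinRoot.algHom_ext
    rw [frobHom_pow_apply, AlgHom.one_apply]
    have : Fintype.card F ^ (2 * j) = Fintype.card F ^ j * Fintype.card F ^ j := by
      rw [two_mul, pow_add]
    rw [this, pow_mul, hj1, inv_pow, hj1, inv_inv]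
  have hdvd : finrank F (AdjoinRoot g) ∣ 2 * j := by
    rw [← FiniteField.orderOf_frobeniusAlgHom]
    exact orderOf_dvd_of_pow_eq_one hone
  obtain ⟨c, hc⟩ := hdvd
  have hc1 : c = 1 := by
    have hc0 : c ≠ 0 := by
      rintro rfl
      omega
    have hc2 : c < 2 := by
      by_contra hge
      have h2 : 2 ≤ c := by omega
      have h3 : finrank F (AdjoinRoot g) * 2 ≤ finrank F (AdjoinRoot g) * c := Nat.mul_le_mul_left _ h2
      omega
    omega
  refine ⟨j, by omega, ?_, hj2⟩
  rw [hc1, mul_one] at hc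
  rw [← hfr, hc]

/-- **Trichotomy.** -/
theorem trichotomy (hodd : Odd (Fintype.card F)) (h2 : (2 : F) ≠ 0) {n : ℕ} (hn : 1 ≤ n) (Q : QuadraticForm F V)
    (hQ : ∀ x, (∀ y, polar Q x y = 0) → x = 0) (hdim : finrank F V = 2 * n) (y : Module.End F V)
    (hyQ : ∀ x, Q (y x) = Q x) {s : ℕ} (hs : s.Prime) (hsodd : Odd s) (hsF : (s : F) ≠ 0) (hys : y ^ s = 1)
    (hy1 : y ≠ 1) :
    (∃ k, 1 ≤ k ∧ k < n ∧ IsOrd F k s) ∨
    (s ∣ Fintype.card F ^ n + 1 ∧ ∃ α : F → ℕ, (∀ t, Nat.card {a : V // a ≠ 0 ∧ Q a = t} = (Fintype.card F ^ n + 1) * α t) ∧ Odd (α 1)) ∨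
    (s ∣ Fintype.card F ^ n - 1 ∧ ∃ α : F → ℕ, (∀ t, Nat.card {a : V // a ≠ 0 ∧ Q a = t} = (Fintype.card F ^ n - 1) * α t) ∧ Odd (α 1)) := by
  classical
  obtain ⟨g, hg, hgdvd, hg1, v, hv0, hv⟩ := exists_irred y hsF hys hy1
  haveI : Fact (Irreducible g) := ⟨hg⟩
  haveI : Fact s.Prime := ⟨hs⟩
  have hfinE : FiniteDimensional F (AdjoinRoot g) := (AdjoinRoot.powerBasis hg.ne_zero).finite
  haveI : Finite (AdjoinRoot g) := Module.finite_of_finite F
  haveI : Fintype (AdjoinRoot g) := Fintype.ofFinite _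
  haveI : Finite V := Module.finite_of_finite F
  haveI : Fintype V := Fintype.ofFinite V
  set ψ := psi y g v hv with hψdef
  have hψ : Function.Injective ψ := psi_injective y g v hv hv0
  have hdegpos : 0 < g.natDegree := Polynomial.natDegree_pos_iff_degree_pos.2 (Polynomial.degree_pos_of_irreducible hg)
  have hfrE : finrank F (AdjoinRoot g) = g.natDegree := finrank_adjoin g
  have hle : g.natDegree ≤ 2 * n := by
    have h1 := LinearMap.finrank_le_finrank_of_injective hψ
    rwa [hfrE, hdim] at h1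
  set ρ := AdjoinRoot.root g with hρdef
  have hρs : ρ ^ s = 1 := by
    have h1 : AdjoinRoot.mk g (X ^ s - 1) = 0 := AdjoinRoot.mk_eq_zero.2 hgdvd
    rw [map_sub, map_pow, AdjoinRoot.mk_X, map_one, sub_eq_zero] at h1
    exact h1
  have hρ1 : ρ ≠ 1 := by
    intro h
    have h1 : AdjoinRoot.mk g (X - 1) = 0 := by
      rw [map_sub, AdjoinRoot.mk_X, map_one, sub_eq_zero]
      exact h
    have h3 : g ∣ X - C 1 := by
      simpa using AdjoinRoot.mk_eq_zero.1 h1
    have hassoc := hg.associated_of_dvd (irreducible_X_sub_C (1 : F)) h3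
    exact hg1 (Polynomial.dvd_iff_isRoot.1 hassoc.symm.dvd)
  have hρ0 : ρ ≠ 0 := by
    intro h
    rw [h, zero_pow hs.ne_zero] at hρs
    exact zero_ne_one hρs
  have hord : orderOf ρ = s := orderOf_eq_prime hρs hρ1
  have hρt : ∀ t, ρ ^ t = 1 ↔ s ∣ t := by
    intro t
    rw [← hord, orderOf_dvd_iff_pow_eq_one]
  have hgen : Algebra.adjoin F {ρ} = ⊤ := AdjoinRoot.adjoinRoot_eq_top
  have hcardE : Fintype.card (AdjoinRoot g) = Fintype.card F ^ g.natDegree := by
    rw [Module.card_eq_pow_finrank (K := F) (V := AdjoinRoot g), hfrE]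
  set B : LinearMap.BilinForm F V := polarBilin Q with hB
  have hBsymm : ∀ a b, B a b = B b a := fun a b => polar_comm _ a b
  have hBnd : B.Nondegenerate := by
    refine ⟨fun x hx => hQ x hx, fun x hx => hQ x fun w => ?_⟩
    rw [polar_comm]
    exact hx w
  have hyB : ∀ a b, B (y a) (y b) = B a b := by
    intro a b
    show polar Q (y a) (y b) = polar Q a b
    simp only [polar, ← map_add, hyQ]
  let B₁ : AdjoinRoot g →ₗ[F] AdjoinRoot g →ₗ[F] F := (B.compl₁₂ ψ ψ)
  have hB₁ : ∀ a b, B₁ a b = B (ψ a) (ψ b) := fun a b => rfl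
  have hB₁ρ : ∀ a b, B₁ (ρ * a) (ρ * b) = B₁ a b := by
    intro a b
    rw [hB₁, hB₁, hψdef, psi_root_mul, psi_root_mul, hyB]
  have hB₁symm : ∀ a b, B₁ a b = B₁ b a := fun a b => hBsymm _ _
  have hQψ : ∀ e, (2 : F) * Q (ψ e) = B₁ e e := by
    intro e
    rw [hB₁]
    show _ = polar Q (ψ e) (ψ e)
    rw [polar_self, two_nsmul]
    ring
  by_cases hzero : ∀ a b, B₁ a b = 0
  · -- the isotropic case
    have hiso : ∀ e, Q (ψ e) = 0 := by
      intro e
      have h1 := hQψ e
      rw [hzero] at h1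
      exact (mul_eq_zero.1 h1).resolve_left h2
    set W₀ := LinearMap.range ψ with hW₀def
    have hW₀ : finrank F W₀ = g.natDegree := by
      rw [hW₀def, LinearMap.finrank_range_of_inj hψ, hfrE]
    have hknle : g.natDegree ≤ n := by
      have hle2 : W₀ ≤ B.orthogonal W₀ := by
        rintro _ ⟨a, rfl⟩
        rw [LinearMap.BilinForm.mem_orthogonal_iff]
        rintro _ ⟨b, rfl⟩
        exact hzero b a
      have h1 := Submodule.finrank_mono hle2
      rw [LinearMap.BilinForm.finrank_orthogonal hBnd, hW₀, hdim] at h1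
      omega
    have hIsOrd : IsOrd F g.natDegree s := by
      obtain ⟨A, hA⟩ := exists_sp_plus (F := F) (K := AdjoinRoot g) hfrE ρ hρ0
      refine ⟨A, order_eq_of_iff _ _ fun t => ?_⟩
      have h1 := hA t 1
      rw [one_smul, map_one] at h1
      rw [sp_pow_eq_one_iff, h1, inv_pow, ← hρt]
      constructor
      · exact fun h => h.2
      · exact fun h => ⟨by rw [h, inv_one], h⟩
    rcases lt_or_eq_of_le hknle with hlt | heq
    · exact Or.inl ⟨g.natDegree, hdegpos, hlt, hIsOrd⟩
    · right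
      right
      constructor
      · have h1 : ρ ^ (Fintype.card (AdjoinRoot g) - 1) = 1 := FiniteField.pow_card_sub_one_eq_one ρ hρ0
        rw [hcardE, heq] at h1
        exact (hρt _).1 h1
      · obtain ⟨α, hα, hα1⟩ := NegSign.count_lagrangian Q hQ W₀ (by
          rintro _ ⟨e, rfl⟩
          exact hiso e) (hW₀.trans heq) hn hdim
        exact ⟨α, hα, by rw [hα1]; exact hodd.pow⟩
  · -- the nondegenerate case
    have hpow : ∀ (k : ℕ) a b, B₁ (ρ ^ k * a) b = B₁ a (ρ⁻¹ ^ k * b) := by
      intro k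
      induction k with
      | zero => simp
      | succ k ih =>
        intro a b
        have h3 : ρ ^ (k + 1) * a = ρ * (ρ ^ k * a) := by ring
        have h4 : ρ⁻¹ ^ (k + 1) * b = ρ⁻¹ ^ k * (ρ⁻¹ * b) := by ring
        rw [h3, h4, ← ih]
        conv_lhs => rw [← mul_inv_cancel_left₀ hρ0 b]
        exact hB₁ρ _ _
    have hkey : ∀ (f : F[X]) a b, B₁ (aeval ρ f * a) b = B₁ a (aeval ρ⁻¹ f * b) := by
      intro f
      induction f using Polynomial.induction_on' with
      | add f₁ f₂ h₁ h₃ =>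
        intro a b
        rw [map_add, map_add, add_mul, add_mul, map_add, map_add, LinearMap.add_apply, h₁, h₃]
      | monomial k c =>
        intro a b
        rw [aeval_monomial, aeval_monomial, Algebra.algebraMap_eq_smul_one]
        simp only [smul_mul_assoc, one_mul, map_smul, LinearMap.smul_apply]
        rw [hpow]
    have hgρ : aeval ρ⁻¹ g = 0 := by
      by_contra hne
      apply hzero
      intro a b
      have h1 := hkey g a ((aeval ρ⁻¹ g)⁻¹ * b)
      have h3 : aeval ρ g = 0 := by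
        rw [AdjoinRoot.aeval_eq, AdjoinRoot.mk_self]
      rw [h3, zero_mul, map_zero, LinearMap.zero_apply, mul_inv_cancel_left₀ hne] at h1
      exact h1.symm
    obtain ⟨m, hm1, hmdeg, hρm⟩ := exists_half (F := F) hs hsodd hρs hρ1 hgρ
    have hmn : m ≤ n := by omega
    have hdE : finrank F (AdjoinRoot g) = 2 * m := by rw [hfrE, hmdeg]
    have hIsOrd : IsOrd F m s := by
      obtain ⟨A, hA⟩ := exists_sp_minus (F := F) (K := AdjoinRoot g) hdE hm1 h2 ρ hρm
      refine ⟨A, order_eq_of_iff _ _ fun t => ?_⟩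
      have h1 := hA t 1
      rw [one_smul, map_one] at h1
      rw [sp_pow_eq_one_iff, h1, hρt]
    rcases lt_or_eq_of_le hmn with hlt | heq
    · exact Or.inl ⟨m, hm1, hlt, hIsOrd⟩
    · right
      left
      subst heq
      refine ⟨(hρt _).1 hρm, ?_⟩
      set N := Fintype.card F ^ m + 1 with hN
      have hex : ∃ e, B₁ e e ≠ 0 := by
        by_contra hcon
        push Not at hcon
        apply hzero
        intro a b
        have h1 := hcon (a + b)
        simp only [map_add, LinearMap.add_apply] at h1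
        have hs' : B₁ b a = B₁ a b := hB₁symm _ _
        have h3 : (2 : F) * B₁ a b = 0 := by linear_combination h1 - hcon a - hcon b - hs'
        exact (mul_eq_zero.1 h3).resolve_left h2
      obtain ⟨e₀, he₀⟩ := hex
      have hdiag : ∀ e, B₁ e e = B₁ 1 (e ^ N) := fun e => FormE.diag m hρm hgen B₁ hB₁ρ e
      obtain ⟨α, hα1, hα2⟩ := exists_count hodd hdE hm1 (B₁ 1) (pow_mem_fixK hdE e₀)
        (by rw [← hdiag]; exact he₀)
      refine ⟨fun t => α (2 * t), fun t => ?_, hα2 _ (by simpa using h2)⟩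
      have hsurj : Function.Surjective ψ := by
        have h1 : LinearMap.range ψ = ⊤ := by
          apply Submodule.eq_top_of_finrank_eq
          rw [LinearMap.finrank_range_of_inj hψ, hdE, hdim]
        exact LinearMap.range_eq_top.1 h1
      simp only
      rw [← hα1, Nat.card_eq_fintype_card, Fintype.card_subtype]
      symm
      refine Finset.card_bij (fun e _ => ψ e) ?_ ?_ ?_
      · intro e he
        simp only [Finset.mem_filter, Finset.mem_univ, true_and] at he ⊢
        refine ⟨fun h => he.1 ((injective_iff_map_eq_zero _).1 hψ e h), ?_⟩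
        have h3 := hQψ e
        rw [hdiag, he.2] at h3
        exact mul_left_cancel₀ h2 h3
      · intro e _ e' _ h
        exact hψ h
      · intro x hx
        simp only [Finset.mem_filter, Finset.mem_univ, true_and] at hx
        obtain ⟨e, rfl⟩ := hsurj x
        refine ⟨e, ?_, rfl⟩
        simp only [Finset.mem_filter, Finset.mem_univ, true_and]
        refine ⟨fun h => hx.1 (by rw [h, map_zero]), ?_⟩
        rw [← hdiag, ← hQψ, hx.2]

end Cfsg.Agent.Lib.Classical.Spectra.Trich
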