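import Mathlib
import Cfsg.Agent.Lib.Classical.Spectra.Rev
import Cfsg.Agent.Lib.Classical.Spectra.Trich

/-!
# Elements of order `2 s`: from `Ω_{2n+1}` to `PSp_{2n}`
-/

set_option autoImplicit false

namespace Cfsg.Agent.Lib.Classical.Spectra.TypeD

open Module QuadraticMap Matrix
open Cfsg.Agent.Lib.Classical.Spectra.Transfer Cfsg.Agent.Lib.Classical.Spectra.Swap
open Cfsg.Agent.Lib.Classical.Spectra.Main Cfsg.Agent.Lib.Classical.Spectra.Bridge
open Cfsg.Agent.Lib.Classical.Spectra.Local Cfsg.Agent.Lib.Classical.Spectra.OddOrders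
open Cfsg.Agent.Lib.Classical.Spectra.Rev
open Cfsg.Agent.Lib.Classical.Symp.OrdModels Cfsg.Agent.Lib.Classical.Symp.OrdClass
open Cfsg.Agent.Lib.Classical.Orth.Basic Cfsg.Agent.Lib.Classical.Orth.Spinor Cfsg.Agent.Lib.Classical.Orth.SphereSign

variable {ι : Type} [Fintype ι] [DecidableEq ι] {F : Type*} [Field F] [Fintype F]

/-- Elements of `Ω` have determinant one. -/
theorem det_of_omega {Q : QuadraticForm F (ι → F)} (hQ : (polarBilin Q).Nondegenerate) (h2 : (2 : F) ≠ 0)
    {g : ↥(Cfsg.isometryGroup F (⇑Q))} (hg : g ∈ Cfsg.Omega F (⇑Q)) : LinearMap.det (Mat Q g) = 1 := by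
  rw [← det_Mat, det_eq_signs Q hQ h2]
  obtain ⟨h1, h3⟩ := (mem_omega_iff Q hQ h2 g).1 hg
  rw [h1, h3]
  simp

/-- An involution commuting with `y`, fixing the range of `y - 1` and of determinant one, fixes everything. -/
theorem fix_of_det {V : Type*} [AddCommGroup V] [Module F V] [FiniteDimensional F V] (h2 : (2 : F) ≠ 0)
    {B : LinearMap.BilinForm F V} (hsymm : ∀ a b, B b a = B a b) (hsep : ∀ x, (∀ w, B x w = 0) → x = 0)
    {y : Module.End F V} {s : ℕ} (hs : (s : F) ≠ 0) (hodd : Odd s) (hy : y ^ s = 1)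
    (hyB : ∀ a b, B (y a) (y b) = B a b) (hker : finrank F (LinearMap.ker (y - 1)) = 1) {τ : Module.End F V}
    (hτB : ∀ a b, B (τ a) (τ b) = B a b) (hτy : τ * y = y * τ) (hτ2 : τ ^ 2 = 1) (hdet : LinearMap.det τ = 1)
    (c : V) (hc : c ∈ LinearMap.ker (y - 1)) : τ c = c := by
  have hc' := isCompl_ker_range hs hy
  have hτker : ∀ x ∈ LinearMap.ker (y - 1), τ x ∈ LinearMap.ker (y - 1) := by
    intro x hx
    rw [LinearMap.mem_ker, LinearMap.sub_apply, Module.End.one_apply] at hx ⊢
    have h1 := LinearMap.congr_fun hτy x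
    simp only [Module.End.mul_apply] at h1
    rw [← h1, sub_eq_zero.1 hx, sub_self]
  let τ₀ : Module.End F (LinearMap.ker (y - 1)) := τ.restrict hτker
  let τ₁ : Module.End F (Rg y) := τ.restrict (stable hτy)
  let Φ := Submodule.prodEquivOfIsCompl _ _ hc'
  have hΦ : ∀ a b, Φ (a, b) = (a : V) + (b : V) := by
    intro a b
    simp [Φ]
  have hτΦ : τ = (Φ : _ →ₗ[F] V) ∘ₗ (LinearMap.prodMap τ₀ τ₁) ∘ₗ
      (Φ.symm : V →ₗ[F] (LinearMap.ker (y - 1) × Rg y)) := by
    apply LinearMap.ext
    intro x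
    obtain ⟨⟨a, b⟩, rfl⟩ := Φ.surjective x
    have h5 : (Φ.symm (Φ (a, b))) = (a, b) := Φ.symm_apply_apply _
    show τ (Φ (a, b)) = Φ (LinearMap.prodMap τ₀ τ₁ (Φ.symm (Φ (a, b))))
    rw [h5, LinearMap.prodMap_apply, hΦ, hΦ, map_add]
    rfl
  have hdet₁ : LinearMap.det τ₁ = 1 := by
    have hs0 : 0 < s := hodd.pos
    have hsw := twR_swap (B := B) (y := y) (s := s) hs0 hy hyB (ε := 1) (by simpa using hsymm)
    have hA : (twR B y s).IsAlt := by
      intro a
      have h1 := hsw a a
      have h3 : (2 : F) * twR B y s a a = 0 := by linear_combination h1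
      exact (mul_eq_zero.1 h3).resolve_left h2
    refine det_invol_alt h2 hA (twR_sep hs hodd hy hyB hsep) (twR_isom hodd hy hτB hτy) ?_
    apply LinearMap.ext
    intro x
    apply Subtype.ext
    rw [restrict_pow, hτ2]
    rfl
  by_cases hc0 : c = 0
  · rw [hc0, map_zero]
  obtain ⟨lam, hlam⟩ := (finrank_eq_one_iff_of_nonzero' (⟨c, hc⟩ : LinearMap.ker (y - 1))
    (fun h => hc0 (congrArg Subtype.val h))).1 hker ⟨τ c, hτker c hc⟩
  have hlam' : lam • c = τ c := congrArg Subtype.val hlam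
  have hτ₀ : τ₀ = lam • LinearMap.id := by
    apply LinearMap.ext
    intro x
    obtain ⟨a, ha⟩ := (finrank_eq_one_iff_of_nonzero' (⟨c, hc⟩ : LinearMap.ker (y - 1))
      (fun h => hc0 (congrArg Subtype.val h))).1 hker x
    apply Subtype.ext
    have ha' : a • c = (x : V) := congrArg Subtype.val ha
    show τ (x : V) = lam • (x : V)
    rw [← ha', map_smul, ← hlam', smul_comm]
  have hdet₀ : LinearMap.det τ₀ = lam := by
    rw [hτ₀, LinearMap.det_smul, LinearMap.det_id, hker, pow_one, mul_one]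
  have hl : lam = 1 := by
    rw [hτΦ, LinearMap.det_conj, LinearMap.det_prodMap, hdet₀, hdet₁, mul_one] at hdet
    exact hdet
  rw [← hlam', hl, one_smul]

/-- **Type D, orthogonal to symplectic.** -/
theorem psp_of_type_D (p : ℕ) [hp : Fact p.Prime] [CharP F p] (hodd : Odd (Fintype.card F)) (h2 : (2 : F) ≠ 0) {n : ℕ}
    (hn : 1 ≤ n) (Q : QuadraticForm F (ι → F)) (hQ : (polarBilin Q).Nondegenerate)
    (hcard : Fintype.card ι = 2 * n + 1) (g : ↥(Cfsg.isometryGroup F (⇑Q))) (hgΩ : g ∈ Cfsg.Omega F (⇑Q)) {s : ℕ}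
    (hs : s.Prime) (hsodd : Odd s) (hsF : (s : F) ≠ 0) (hg : ∀ t, g ^ t = 1 ↔ 2 * s ∣ t) :
    ∃ z : Cfsg.PSp n F, orderOf z = 2 * s := by
  classical
  have hsep : ∀ x, (∀ w, polarBilin Q x w = 0) → x = 0 := fun x hx => hQ.1 x hx
  set X := Mat Q g with hXdef
  have hXQ : ∀ v, Q (X v) = Q v := Mat_isom Q g
  have hX : ∀ t, X ^ t = 1 ↔ 2 * s ∣ t := by
    intro t
    rw [hXdef, Mat_pow_eq_one_iff, hg]
  set B : LinearMap.BilinForm F (ι → F) := polarBilin Q with hB
  have hsymm : ∀ a b, B b a = B a b := fun a b => polar_comm _ b a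
  have hBX : ∀ a b, B (X a) (X b) = B a b := polar_of_isom Q hXQ
  have hBpow : ∀ (j : ℕ) a b, B ((X ^ j) a) ((X ^ j) b) = B a b := fun j => polar_of_isom Q (pow_isom Q hXQ j)
  have hs1 : 1 < s := hs.one_lt
  obtain ⟨u, hu⟩ : ∃ u, s + 1 = 2 * u := by
    obtain ⟨c, hc⟩ := hsodd
    exact ⟨c + 1, by omega⟩
  set y := X ^ (s + 1) with hy
  set τ := Mat Q (g ^ s) with hτdef
  have hτX : τ = X ^ s := by rw [hτdef, map_pow]
  have hys : y ^ s = 1 := by
    rw [hy, ← pow_mul, hX, hu]
    exact ⟨u, by ring⟩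
  have hcoprime : Nat.Coprime s (s + 1) := by simp
  have hyord : ∀ j, y ^ j = 1 ↔ s ∣ j := by
    intro j
    rw [hy, ← pow_mul, hX]
    constructor
    · intro h
      have h3 : s ∣ (s + 1) * j := (dvd_mul_left _ _).trans h
      exact hcoprime.dvd_of_dvd_mul_left h3
    · rintro ⟨c, rfl⟩
      rw [hu]
      exact ⟨u * c, by ring⟩
  have hτsq : τ ^ 2 = 1 := by
    rw [hτX, ← pow_mul, hX]
    exact ⟨1, by ring⟩
  have hXty : τ * y = X := by
    rw [hτX, hy, ← pow_add]
    have : s + (s + 1) = 2 * s + 1 := by ring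
    rw [this, pow_succ, (hX _).2 dvd_rfl, one_mul]
  have hτy : τ * y = y * τ := by
    rw [hτX, hy, ← pow_add, ← pow_add, add_comm]
  have hBy : ∀ a b, B (y a) (y b) = B a b := hBpow _
  have hBτ : ∀ a b, B (τ a) (τ b) = B a b := by
    rw [hτX]
    exact hBpow _
  have hXy : X * y = y * X := ((Commute.refl X).pow_right _).eq
  have hdimV : finrank F (ι → F) = 2 * n + 1 := by rw [finrank_pi, hcard]
  obtain ⟨l, hl⟩ := even_range (B := B) h2 hsymm hsep hsF hsodd hys hBy
  have hle : 2 * l ≤ 2 * n + 1 := by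
    rw [← hl, ← hdimV]
    exact Submodule.finrank_le _
  have hy1 : y ≠ 1 := by
    intro h
    have h3 := (hyord 1).1 (by rw [pow_one, h])
    have := Nat.le_of_dvd one_pos h3
    omega
  obtain ⟨x₀, hx₀, hx₀0⟩ : ∃ x₀ ∈ Rg y, x₀ ≠ 0 := by
    obtain ⟨w, hw⟩ : ∃ w, (y - 1) w ≠ 0 := by
      by_contra hcon
      push Not at hcon
      exact hy1 (sub_eq_zero.1 (LinearMap.ext hcon))
    exact ⟨_, ⟨w, rfl⟩, hw⟩
  have hneg0 : ∀ x : ι → F, -x = x → x = 0 := by
    intro x h
    have h3 : (2 : F) • x = 0 := by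
      rw [two_smul]
      nth_rw 1 [← h]
      simp
    exact (smul_eq_zero.1 h3).resolve_left h2
  rcases lt_or_eq_of_le (show l ≤ n by omega) with hlt | heq
  · -- Case I
    obtain ⟨k, rfl⟩ : ∃ k, n = l + k := ⟨n - l, by omega⟩
    have hk : 1 ≤ k := by omega
    have hne : (-1 : Matrix (Fin k ⊕ Fin k) (Fin k ⊕ Fin k) F) ≠ 1 := by
      intro h
      have h3 := congrFun (congrFun h (Sum.inl ⟨0, by omega⟩)) (Sum.inl ⟨0, by omega⟩)
      simp only [Matrix.neg_apply, Matrix.one_apply_eq] at h3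
      apply h2
      linear_combination -h3
    let A₂ : symplecticGroup (Fin k) F := ⟨-1, SymplecticGroup.neg_mem (one_mem _)⟩
    obtain ⟨A, hA⟩ := exists_sp_block (B := B) h2 hsymm hsep hsF hsodd hys hBy hl (T := y) hBy rfl A₂
    refine ⟨QuotientGroup.mk A, order_eq_of_iff _ _ fun j => ?_⟩
    rw [psp_pow_eq_one_iff hn]
    have h1 := hA j 1
    simp only [one_smul] at h1
    have hA₂ : A₂.1 ^ j = 1 ↔ 2 ∣ j := by
      show (-1 : Matrix (Fin k ⊕ Fin k) (Fin k ⊕ Fin k) F) ^ j = 1 ↔ _
      rw [neg_one_pow_eq_one_iff_even hne, even_iff_two_dvd]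
    constructor
    · rintro (h | h)
      · obtain ⟨h3, h4⟩ := h1.1 h
        have h5 : 2 ∣ j := hA₂.1 h4
        have h6 : y ^ j = 1 := eq_one_of_fix hsF hys (fun c hc => pow_fix_ker hc j) h3
        exact ((Nat.coprime_two_left).2 hsodd).mul_dvd_of_dvd_of_dvd h5 ((hyord j).1 h6)
      · exfalso
        have h3 := (hA j (-1)).1 (by rw [h]; simp)
        have h4 : ∀ x ∈ Rg y, (y ^ j) x = -x := by simpa using h3.1
        have h5 : y ^ (j * 2) = 1 := by
          apply eq_one_of_fix hsF hys (fun c hc => pow_fix_ker hc _)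
          intro x hx
          rw [pow_mul, pow_two, Module.End.mul_apply, h4 x hx, map_neg, h4 x hx, neg_neg]
        have h6 : s ∣ j * 2 := (hyord _).1 h5
        have h7 : s ∣ j := ((Nat.coprime_two_right).2 hsodd).dvd_of_dvd_mul_right h6
        have h8 := h4 x₀ hx₀
        rw [(hyord j).2 h7] at h8
        exact hx₀0 (hneg0 x₀ h8.symm)
    · intro h
      left
      refine h1.2 ⟨?_, hA₂.2 ((dvd_mul_right _ _).trans h)⟩
      intro x _
      rw [(hyord j).2 ((dvd_mul_left _ _).trans h)]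
      rfl
  · -- Case II
    subst heq
    have hker1 : finrank F (LinearMap.ker (y - 1)) = 1 := by
      have h1 := finrank_ker_add_range hsF hys
      omega
    have hdetτ : LinearMap.det τ = 1 := det_of_omega hQ h2 (Subgroup.pow_mem _ hgΩ s)
    have hτfix : ∀ c ∈ LinearMap.ker (y - 1), τ c = c :=
      fix_of_det h2 hsymm hsep hsF hsodd hys hBy hker1 hBτ hτy hτsq hdetτ
    have hyfix : ∀ c ∈ LinearMap.ker (y - 1), y c = c := by
      intro c hc
      rw [LinearMap.mem_ker, LinearMap.sub_apply, Module.End.one_apply] at hc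
      exact sub_eq_zero.1 hc
    have hXfix : ∀ c ∈ LinearMap.ker (y - 1), X c = c := by
      intro c hc
      rw [← hXty, Module.End.mul_apply, hyfix c hc, hτfix c hc]
    by_cases hcase : ∀ x ∈ Rg y, τ x = -x
    · -- Case II-b
      set R := Rg y with hRdef
      let Q₁ : QuadraticForm F R := Q.comp R.subtype
      have hQ₁ : ∀ x : R, (∀ w : R, polar Q₁ x w = 0) → x = 0 := by
        intro x hx
        apply Subtype.ext
        refine sep_range hsF hys hBy hsep _ x.2 (fun w hw => ?_)
        exact hx ⟨w, hw⟩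
      let y₁ : Module.End F R := y.restrict (stable (T := y) rfl)
      have hy₁Q : ∀ x, Q₁ (y₁ x) = Q₁ x := fun x => pow_isom Q hXQ (s + 1) x
      have hy₁s : y₁ ^ s = 1 := by
        apply LinearMap.ext
        intro x
        apply Subtype.ext
        rw [restrict_pow, hys]
        rfl
      have hy₁1 : y₁ ≠ 1 := by
        intro h
        apply hy1
        apply eq_one_of_fix hsF hys (hyfix)
        intro x hx
        exact congrArg Subtype.val (LinearMap.congr_fun h ⟨x, hx⟩)
      have hsign : ∀ {M : ℕ}, Even M → (∀ (α : F → ℕ), (∀ t, Nat.card {a : R // a ≠ 0 ∧ Q₁ a = t} = M * α t) → Odd (α 1) →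
          Even (M / 2)) := by
        intro M hM α hα hα1
        have h1 := NegSign.sign_neg h2 Q R (LinearMap.ker (y - 1)) (isCompl_ker_range hsF hys).symm
          (fun a ha b hb => orth_range_ker hBy hb ha) τ hcase hτfix hM α hα hα1 (spherePerm Q 1 (g ^ s))
          (fun v => rfl)
        have h3 : plusSign Q (g ^ s) = 1 := ((mem_omega_iff Q hQ h2 _).1 (Subgroup.pow_mem _ hgΩ s)).1
        have h4 : (-1 : ℤˣ) ^ (M / 2) = 1 := by
          rw [← h1]
          exact h3
        exact (neg_one_pow_eq_one_iff_even (by decide)).1 h4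
      have hfour : ∀ {M : ℕ}, Even M → Even (M / 2) → s ∣ M → 2 * (2 * s) ∣ M := by
        intro M hM hM2 hsM
        have h4 : 4 ∣ M := by
          obtain ⟨a, ha⟩ := hM
          obtain ⟨b, hb⟩ := hM2
          exact ⟨b, by omega⟩
        have hco : Nat.Coprime 4 s := by
          have : Nat.Coprime (2 ^ 2) s := Nat.Coprime.pow_left 2 ((Nat.coprime_two_left).2 hsodd)
          simpa using this
        have := hco.mul_dvd_of_dvd_of_dvd h4 hsM
        rwa [show 2 * (2 * s) = 4 * s by ring]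
      rcases Trich.trichotomy hodd h2 hn Q₁ hQ₁ hl y₁ hy₁Q hs hsodd hsF hy₁s hy₁1 with ⟨k, hk1, hkn, hord⟩ |
        ⟨hsd, α, hα, hα1⟩ | ⟨hsd, α, hα, hα1⟩
      · obtain ⟨k', rfl⟩ : ∃ k', l = k + k' := ⟨l - k, by omega⟩
        obtain ⟨z, hz⟩ := exists_twist h2 hk1 (by omega) hord (isOrd_one (F := F) k') hsodd odd_one
        exact ⟨z, by rw [hz]; simp⟩
      · have hev : Even (Fintype.card F ^ l + 1) := (hodd.pow).add_one
        exact exists_order_minus p hn h2 (hfour hev (hsign hev α hα hα1) hsd)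
      · have hev : Even (Fintype.card F ^ l - 1) := by
          have h1 : 1 ≤ Fintype.card F ^ l := Nat.one_le_pow _ _ Fintype.card_pos
          exact Nat.Odd.sub_odd hodd.pow odd_one
        exact exists_order_plus p hn (hfour hev (hsign hev α hα hα1) hsd)
    · -- Case II-a
      push Not at hcase
      obtain ⟨x₁, hx₁, hτx₁⟩ := hcase
      obtain ⟨A, hA⟩ := exists_sp_block (B := B) h2 hsymm hsep hsF hsodd hys hBy hl (T := X) hBX hXy
        (1 : symplecticGroup (Fin 0) F)
      have key : ∃ z : Cfsg.PSp (l + 0) F, orderOf z = 2 * s := by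
        refine ⟨QuotientGroup.mk A, order_eq_of_iff _ _ fun j => ?_⟩
        rw [psp_pow_eq_one_iff (by omega)]
        have h1 := hA j 1
        simp only [one_smul] at h1
        have hXjfix : ∀ c ∈ LinearMap.ker (y - 1), (X ^ j) c = c := fun c hc => fix_iter (hXfix c hc) j
        constructor
        · rintro (h | h)
          · obtain ⟨h3, -⟩ := h1.1 h
            rw [← hX]
            exact ext_of_compl (isCompl_ker_range hsF hys) hXjfix h3
          · exfalso
            have h3 := (hA j (-1)).1 (by rw [h]; simp)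
            have h4 : ∀ x ∈ Rg y, (X ^ j) x = -x := by simpa using h3.1
            have h5 : X ^ (j * 2) = 1 := by
              apply ext_of_compl (isCompl_ker_range hsF hys)
              · intro c hc
                exact fix_iter (hXfix c hc) _
              · intro x hx
                rw [pow_mul, pow_two, Module.End.mul_apply, h4 x hx, map_neg, h4 x hx, neg_neg]
                rfl
            have h6 : 2 * s ∣ j * 2 := (hX _).1 h5
            have h7 : s ∣ j := by
              rw [mul_comm j 2] at h6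
              exact (Nat.mul_dvd_mul_iff_left (by norm_num)).1 h6
            obtain ⟨i, rfl⟩ := h7
            rcases Nat.even_or_odd' i with ⟨c, rfl | rfl⟩
            · have h8 := h4 x₀ hx₀
              rw [(hX _).2 ⟨c, by ring⟩] at h8
              exact hx₀0 (hneg0 x₀ h8.symm)
            · apply hτx₁
              have h8 := h4 x₁ hx₁
              have h9 : X ^ (s * (2 * c + 1)) = τ := by
                have : s * (2 * c + 1) = 2 * s * c + s := by ring
                rw [this, pow_add, pow_mul, (hX _).2 dvd_rfl, one_pow, one_mul, hτX]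
              rwa [h9] at h8
        · intro h
          left
          refine h1.2 ⟨?_, Subsingleton.elim _ _⟩
          intro x _
          rw [(hX j).2 h]
          rfl
      exact key

end Cfsg.Agent.Lib.Classical.Spectra.TypeD
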